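import Cfsg.Agent.H164.RG.TabCon

/-!
# The centralizers in `E6` (S3509, helper164)

`tab_E6` : for Kac coordinates of degree `n` and `S` the set of the roots `a` with `n ∣ ∑ a i * c i`: the set of the `a ∈ S` with at
least `6` neighbours is nonempty and connected, or `S.ncard ≤ 18`. `ok_E6` : the masks, for other checks.
-/

set_option autoImplicit false
set_option maxRecDepth 100000

namespace Cfsg.Agent.H164.RG

open CoxeterSystem Cfsg Cfsg.Lie Cfsg.Lie.ChevalleyDatum
open Cfsg.Agent.ChevalleyStructure Cfsg.Agent.ChevalleyStructure.Elts Cfsg.Agent.ChevalleyStructure.CoxeterGeom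
  Cfsg.Agent.ChevalleyStructure.CoxeterGeomTypes Cfsg.Agent.ChevalleyStructure.NPerm
open Cfsg.Agent.Tits.Roots Cfsg.Agent.Tits.Core Cfsg.Agent.Nodes Cfsg.Agent.Nodes.Reps Cfsg.Agent.Nodes.BNOf
  Cfsg.Agent.Nodes.RGDChev Cfsg.Agent.Nodes.Bruhat
open Cfsg.Agent.H129.TorusChar Cfsg.Agent.H129.WData
open Cfsg.Agent.Nodes.Coroot
open Cfsg.Agent.H931.KC Cfsg.Agent.H76.RG

/-- the form -/
abbrev BE6 : Mat 6 :=
  ![![2, 0, -1, 0, 0, 0], ![0, 2, 0, -1, 0, 0], ![-1, 0, 2, -1, 0, 0], ![0, -1, -1, 2, -1, 0], ![0, 0, 0, -1, 2, -1],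
    ![0, 0, 0, 0, -1, 2]]

/-- the masks of `chevE6` -/
def TE6 : Tab where
  bi := [56, 46, 42, 39, 37, 36, 0]
  K := [[2, 0, -1, 0, 0, 0], [0, 2, 0, -1, 0, 0], [-1, 0, 2, -1, 0, 0], [0, -1, -1, 2, -1, 0], [0, 0, 0, -1, 2, -1],
    [0, 0, 0, 0, -1, 2], [0, -1, 0, 0, 0, 0]]
  Z := [72057594037862400, 2233855783852898304, 73117522236309504, 216248090640826368, 2811597025745888256,
    174031999679436486288]
  P := [4722294425275607285760, 2361183241434822606848, 4574792530279968800768, 3541774862152233910272, 4205893677602796732416,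
    4548334483146113286144]
  N := [65535, 1, 31, 3, 65575, 44095441263]
  Df := [147429837402611318784, 2377333008969070819330, 1033169726195355386080, 1236247257770913972996, 669309514501601764424,
    342440805494068351632, 67045374]
  No := [147572892661478064096, 3559942378109296721667, 1162369985715126190332, 1840529072509083870150, 1003964271829712057964,
    513661208344181742552, 4720132627085792315391]
  adj := [4, 72, 9, 22, 40, 16, 2]

theorem ok_E6 : TabOK chevE6 6 BE6 TE6 := by decide +kernel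

theorem chk_E6 : allm (fun m => decide (pop (phi TE6 6 (2 ^ 72 - 1) m) ≤ 18) || conn TE6 6 (2 ^ 72 - 1) 6 m) 127 =
    true := by decide +kernel

/-- **The centralizers in `E6`.** -/
theorem tab_E6 {M : CoxeterMatrix (Fin 6)} (hp : IsType chevE6 6 M) {n : ℕ} {c : Fin 6 → ℕ} {c0 : ℕ}
    (hk : Kac chevE6 6 n c c0) {S : Set (Fin 6 → ℤ)} (hS : IsS hp n c S) :
    ((∃ a ∈ S, 6 ≤ nb M.toCoxeterSystem hp.isCartan S a) ∧
      ∀ a ∈ S, ∀ b ∈ S, 6 ≤ nb M.toCoxeterSystem hp.isCartan S a → 6 ≤ nb M.toCoxeterSystem hp.isCartan S b →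
        Relation.ReflTransGen (fun x y => y ∈ S ∧ cpr M.toCoxeterSystem hp.isCartan y x ≠ 0) a b) ∨
      S.ncard ≤ 18 := by
  have h1 := of_allm chk_E6 (mc 6 c c0) (mc_ne hk)
  rw [Bool.or_eq_true, decide_eq_true_eq] at h1
  rcases h1 with h1 | h1
  · right
    rw [tab_card hp hk ok_E6 hS]
    exact h1
  · left
    exact tab_conn hp hk ok_E6 hS h1

end Cfsg.Agent.H164.RG
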